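import Mathlib
import Cfsg.Agent.H524.CS.Omega

/-!
# S3677, orthogonal groups of odd dimension: reduction to `W = [V, s]` (helper524)
-/

set_option autoImplicit false

namespace Cfsg.Agent.H524.CS

open Module QuadraticMap Cfsg.Agent.H951 Cfsg.Agent.H204 Cfsg.Agent.LieClassical.OrthFinite

section Gen

variable {F V : Type*} [Field F] [AddCommGroup V] [Module F V]

theorem inv_cm_of_comm {s x : End F V} (h : ∀ v, x (s v) = s (x v)) : Inv x (cm s) := by
  intro w hw
  obtain ⟨u, rfl⟩ := mem_cm.1 hw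
  exact mem_cm.2 ⟨x u, by rw [map_sub, h]⟩

theorem inv_fx_of_comm {s x : End F V} (h : ∀ v, x (s v) = s (x v)) : Inv x (fx s) := by
  intro w hw
  rw [mem_fx] at hw ⊢
  rw [← h, hw]

/-- the space orthogonal to `[V, s]` is the fixed space -/
theorem perp_cm {B : LinearMap.BilinForm F V} (hs : Sy B) (hn : Nd B) {s : V ≃ₗ[F] V}
    (hB : ∀ u v, B (s u) (s v) = B u v) : perp B (cm (s : End F V)) = fx (s : End F V) := by
  ext v
  rw [mem_perp, mem_fx]
  constructor
  · intro h
    rw [← sub_eq_zero]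
    apply hn
    intro w
    obtain ⟨u, rfl⟩ := s.surjective w
    have h1 := h _ (mem_cm.2 ⟨u, rfl⟩)
    rw [map_sub, LinearMap.sub_apply] at h1
    have h3 : B (s u) v - B u v = 0 := h1
    rw [map_sub, LinearMap.sub_apply]
    have h4 : B ((s : End F V) v) (s u) = B v u := hB v u
    rw [h4, hs v u, hs v (s u)]
    linear_combination -h3
  · intro h x hx
    obtain ⟨u, rfl⟩ := mem_cm.1 hx
    rw [map_sub, LinearMap.sub_apply]
    have h4 : B ((s : End F V) u) ((s : End F V) v) = B u v := hB u v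
    rw [h] at h4
    rw [h4, sub_self]

/-- every operator commuting with `s` and acting trivially on the fixed space of `s`... commutes with `x` -/
theorem comm_of_split {s x t : End F V} {r : ℕ} (hr : (r : F) ≠ 0) (hs : s ^ r = 1)
    (hts : ∀ v, t (s v) = s (t v)) (hfx : fx s ≤ fx x)
    (h : ∀ w ∈ cm s, t (x w) = x (t w)) (v : V) : t (x v) = x (t v) := by
  have hc := isCompl_fx_cm hr hs
  obtain ⟨a, b, rfl⟩ := exists_add hc v
  have h1 : x (a : V) = a := mem_fx.1 (hfx a.2)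
  have h3 : x (t (a : V)) = t (a : V) := mem_fx.1 (hfx (inv_fx_of_comm hts _ a.2))
  rw [map_add, map_add, map_add, map_add, h1, h3, h _ b.2]

end Gen

variable {F : Type*} [Field F] [Finite F] {ι : Type} [Fintype ι] [DecidableEq ι] {Q : QuadraticForm F (ι → F)}

omit [Finite F] [Fintype ι] [DecidableEq ι] in
theorem nd_polar (hQ : (polarBilin Q).Nondegenerate) : Nd (polarBilin Q) := fun u hu => hQ.1 u hu

omit [Finite F] in
theorem ie_pow (s : Cfsg.isometryGroup F ⇑Q) (n : ℕ) :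
    (((ie Q s : (ι → F) ≃ₗ[F] (ι → F)) : End F (ι → F)) ^ n) = (ie Q (s ^ n) : (ι → F) ≃ₗ[F] (ι → F)) := by
  induction n with
  | zero => rw [pow_zero, pow_zero, map_one]; rfl
  | succ n ih => rw [pow_succ, pow_succ, map_mul, ih]; rfl

omit [Finite F] in
theorem ie_comm {x s : Cfsg.isometryGroup F ⇑Q} (h : Commute x s) (v : ι → F) :
    (ie Q x : End F (ι → F)) ((ie Q s : End F (ι → F)) v) = (ie Q s : End F (ι → F)) ((ie Q x : End F (ι → F)) v) := by
  have h1 := congrArg (fun k => ie Q k v) h.eq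
  simp only [map_mul] at h1
  exact h1

omit [Finite F] in
/-- **reduction to `W = [V, s]`** -/
theorem red (h2 : (2 : F) ≠ 0) (hQ : (polarBilin Q).Nondegenerate) {s x : Cfsg.isometryGroup F ⇑Q} {r : ℕ}
    (hr : (r : F) ≠ 0) (hs : s ^ r = 1) (hxs : Commute x s)
    (h1 : finrank F (fx (ie Q s : End F (ι → F))) = 1)
    (hfx : fx (ie Q x : End F (ι → F)) = fx (ie Q s : End F (ι → F)))
    (hinv : Inv (ie Q x : End F (ι → F)) (cm (ie Q s : End F (ι → F)))) :
    Nat.card (CI (polarBilin Q) (ie Q x : End F (ι → F))) =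
      2 * Nat.card (CI (LinearMap.BilinForm.restrict (polarBilin Q) (cm (ie Q s : End F (ι → F)))) (res (ie Q x : End F (ι → F)) hinv)) := by
  have hnd := nd_polar hQ
  have hsy := sy_polar Q
  have hs' : ((ie Q s : (ι → F) ≃ₗ[F] (ι → F)) : End F (ι → F)) ^ r = 1 := by
    rw [ie_pow, hs, map_one]; rfl
  have hperp := perp_cm hsy hnd (s := ie Q s) (ie_B s)
  have hcomp : IsCompl (cm (ie Q s : End F (ι → F))) (perp (polarBilin Q) (cm (ie Q s : End F (ι → F)))) := by
    rw [hperp]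
    exact (isCompl_fx_cm hr hs').symm
  have hxY : Inv (ie Q x : End F (ι → F)) (perp (polarBilin Q) (cm (ie Q s : End F (ι → F)))) := by
    rw [hperp]
    exact inv_fx_of_comm (ie_comm hxs)
  rw [card_split hsy hcomp hinv hxY, card_line h2 (nd_restrict_perp hsy hnd hcomp.sup_eq_top) (by rw [hperp, h1]),
    mul_comm]
  intro g
  have hY : Inv (g.1 : End F (ι → F)) (perp (polarBilin Q) (cm (ie Q s : End F (ι → F)))) := by
    rw [hperp, ← hfx]
    exact inv_fx_of_comm fun v => g.2.2 v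
  refine ⟨?_, hY⟩
  have hg : Smi (polarBilin Q) 1 (g.1 : End F (ι → F)) := fun u v => by
    rw [one_mul]; exact g.2.1 u v
  have h3 := inv_perp hg g.1.injective hY
  have h4 : perp (polarBilin Q) (perp (polarBilin Q) (cm (ie Q s : End F (ι → F)))) = cm (ie Q s : End F (ι → F)) :=
    LinearMap.BilinForm.orthogonal_orthogonal hQ hsy.isSymm.isRefl _
  rw [h4] at h3
  exact h3

/-- **the centralizer in `Omega`**: twice the centralizer order is the number of isometries of `W` commuting with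
`x` -/
theorem card_red (h2 : (2 : F) ≠ 0) (hQ : (polarBilin Q).Nondegenerate) (hodd : Odd (Fintype.card ι))
    (h3 : 3 ≤ Fintype.card ι) {s x : Cfsg.Omega F ⇑Q} {r : ℕ} (hro : Odd r)
    (hr : (r : F) ≠ 0) (hs : s ^ r = 1) (hs1 : s ≠ 1) (hxs : Commute x s)
    (h1 : finrank F (fx (ie Q s.1 : End F (ι → F))) = 1)
    (hfx : fx (ie Q x.1 : End F (ι → F)) = fx (ie Q s.1 : End F (ι → F)))
    (hinv : Inv (ie Q x.1 : End F (ι → F)) (cm (ie Q s.1 : End F (ι → F))))
    (hcm : ∀ t : End F (ι → F), (∀ u v, polarBilin Q (t u) (t v) = polarBilin Q u v) →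
      (∀ v, t (ie Q s.1 v) = ie Q s.1 (t v)) → ∀ w ∈ cm (ie Q s.1 : End F (ι → F)), t (ie Q x.1 w) = ie Q x.1 (t w)) :
    2 * Nat.card (Subgroup.centralizer ({x} : Set (Cfsg.Omega F ⇑Q))) =
      Nat.card (CI (LinearMap.BilinForm.restrict (polarBilin Q) (cm (ie Q s.1 : End F (ι → F)))) (res (ie Q x.1 : End F (ι → F)) hinv)) := by
  have hs' : s.1 ^ r = 1 := congrArg Subtype.val hs
  have hs1' : s.1 ≠ 1 := fun h => hs1 (Subtype.ext h)
  have hxs' : Commute x.1 s.1 := congrArg Subtype.val hxs.eq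
  have hse : ((ie Q s.1 : (ι → F) ≃ₗ[F] (ι → F)) : End F (ι → F)) ^ r = 1 := by
    rw [ie_pow, hs', map_one]; rfl
  obtain ⟨t, ht, ht1, ht2⟩ := exists_t h2 hQ hro hr (x := x.1) hs' hs1' fun t htB hts v =>
    comm_of_split (s := (ie Q s.1 : End F (ι → F))) (x := (ie Q x.1 : End F (ι → F))) hr hse hts hfx.ge
      (hcm t htB hts) v
  have h4 := card_omega h2 hQ hodd h3 x ht ht1 ht2
  rw [red h2 hQ hr hs' hxs' h1 hfx hinv] at h4
  omega

end Cfsg.Agent.H524.CS
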