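import Mathlib
import Cfsg.Agent.H524.CS.Red

/-!
# S3677, orthogonal groups of odd dimension: the fixed space (helper524)
-/

set_option autoImplicit false

namespace Cfsg.Agent.H524.CS

open Module QuadraticMap Cfsg.Agent.H951 Cfsg.Agent.H204 Cfsg.Agent.LieClassical.OrthFinite

section Gen

variable {F V : Type*} [Field F] [AddCommGroup V] [Module F V] [FiniteDimensional F V]

/-- `x` of determinant one commuting with `s`, `dim C_V(s) = 1`: `x = 1` or `C_V(x) = C_V(s)`, if `x` fixes no vector of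
`[V, s]` unless it is trivial there. -/
theorem fx_eq (h2 : (2 : F) ≠ 0) {B : LinearMap.BilinForm F V} (hn : Nd B) (hodd : Odd (finrank F V)) {s x : End F V}
    {r : ℕ} (hr : (r : F) ≠ 0) (hs : s ^ r = 1) (hxB : ∀ u v, B (x u) (x v) = B u v) (hxs : ∀ v, x (s v) = s (x v))
    (hdet : LinearMap.det x = 1) (h1 : finrank F (fx s) = 1)
    (hW : (∃ w ∈ cm s, w ≠ 0 ∧ x w = w) → ∀ w ∈ cm s, x w = w) : x = 1 ∨ fx x = fx s := by
  have hc := isCompl_fx_cm hr hs
  have hU := inv_fx_of_comm hxs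
  have hM := inv_cm_of_comm hxs
  -- the determinant on the fixed space of `s`
  obtain ⟨u, hu0, hu⟩ := finrank_eq_one_iff'.1 h1
  obtain ⟨c, hcu⟩ := hu (res x hU u)
  have hxu : ∀ a : fx s, x (a : V) = c • (a : V) := by
    intro a
    obtain ⟨d, rfl⟩ := hu a
    have h3 : x (u : V) = c • (u : V) := (congrArg Subtype.val hcu).symm
    rw [Submodule.coe_smul, map_smul, h3, smul_smul, smul_smul, mul_comm]
  have hdet1 : (∀ w ∈ cm s, x w = w) → c = 1 := by
    intro hw
    have h3 : x = glue hc (c • LinearMap.id) LinearMap.id := by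
      refine LinearMap.ext fun v => ?_
      obtain ⟨a, b, rfl⟩ := exists_add hc v
      rw [glue_add, map_add, hxu a, hw b b.2]
      rfl
    rw [h3, det_glue, LinearMap.det_smul, h1, pow_one, LinearMap.det_id, LinearMap.det_id, mul_one, mul_one] at hdet
    exact hdet
  by_cases hw : ∃ w ∈ cm s, w ≠ 0 ∧ x w = w
  · left
    have h3 := hW hw
    have h4 := hdet1 h3
    refine LinearMap.ext fun v => ?_
    obtain ⟨a, b, rfl⟩ := exists_add hc v
    rw [map_add, hxu, h4, one_smul, h3 b b.2]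
    rfl
  · right
    obtain ⟨v, hv0, hv⟩ := exists_fixed hodd h2 hn hxB hdet
    obtain ⟨a, b, rfl⟩ := exists_add hc v
    have hsplit : ∀ (a : fx s) (b : cm s), x ((a : V) + b) = a + b → x (a : V) = a ∧ x (b : V) = b := by
      intro a b h
      rw [map_add] at h
      have h5 : (x (a : V) - a) + (x (b : V) - b) = 0 := by
        rw [sub_add_sub_comm, h, sub_self]
      have h6 : x (a : V) - a ∈ fx s := (fx s).sub_mem (hU _ a.2) a.2
      have h7 : x (b : V) - b ∈ cm s := (cm s).sub_mem (hM _ b.2) b.2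
      have h8 : x (a : V) - a = -(x (b : V) - b) := eq_neg_of_add_eq_zero_left h5
      have h9 : x (a : V) - a ∈ fx s ⊓ cm s := ⟨h6, by rw [h8]; exact (cm s).neg_mem h7⟩
      rw [hc.inf_eq_bot, Submodule.mem_bot] at h9
      rw [h9, zero_add] at h5
      exact ⟨sub_eq_zero.1 h9, sub_eq_zero.1 h5⟩
    obtain ⟨h3, h4⟩ := hsplit a b hv
    have hb : (b : V) = 0 := by
      by_contra hb0
      exact hw ⟨b, b.2, hb0, h4⟩
    have ha : (a : V) ≠ 0 := by
      intro ha
      apply hv0
      rw [ha, hb, add_zero]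
    have hc1 : c = 1 := by
      rw [hxu] at h3
      have h5 : (c - 1) • (a : V) = 0 := by rw [sub_smul, h3, one_smul, sub_self]
      exact sub_eq_zero.1 ((smul_eq_zero.1 h5).resolve_right ha)
    apply le_antisymm
    · intro v hv
      obtain ⟨a, b, rfl⟩ := exists_add hc v
      obtain ⟨-, h5⟩ := hsplit a b (mem_fx.1 hv)
      have h6 : (b : V) = 0 := by
        by_contra hb0
        exact hw ⟨b, b.2, hb0, h5⟩
      rw [h6, add_zero]
      exact a.2
    · intro v hv
      rw [mem_fx]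
      have := hxu ⟨v, hv⟩
      rw [hc1, one_smul] at this
      exact this

end Gen

variable {F : Type*} [Field F] [Finite F] {ι : Type} [Fintype ι] [DecidableEq ι] {Q : QuadraticForm F (ι → F)}

theorem ie_fx (h2 : (2 : F) ≠ 0) (hQ : (polarBilin Q).Nondegenerate) (hodd : Odd (Fintype.card ι))
    (h3 : 3 ≤ Fintype.card ι) {s x : Cfsg.Omega F ⇑Q} {r : ℕ}
    (hr : (r : F) ≠ 0) (hs : s ^ r = 1) (hxs : Commute x s) (hx1 : x ≠ 1)
    (h1 : finrank F (fx (ie Q s.1 : End F (ι → F))) = 1)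
    (hW : (∃ w ∈ cm (ie Q s.1 : End F (ι → F)), w ≠ 0 ∧ ie Q x.1 w = w) →
      ∀ w ∈ cm (ie Q s.1 : End F (ι → F)), ie Q x.1 w = w) :
    fx (ie Q x.1 : End F (ι → F)) = fx (ie Q s.1 : End F (ι → F)) := by
  have hs' : s.1 ^ r = 1 := congrArg Subtype.val hs
  have hxs' : Commute x.1 s.1 := congrArg Subtype.val hxs.eq
  have hse : ((ie Q s.1 : (ι → F) ≃ₗ[F] (ι → F)) : End F (ι → F)) ^ r = 1 := by
    rw [ie_pow, hs', map_one]; rfl
  have hdet : LinearMap.det ((ie Q x.1 : (ι → F) ≃ₗ[F] (ι → F)) : End F (ι → F)) = 1 := by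
    rw [det_ie]
    exact ((ClassicalGeometry.OmegaIndex.mem_Omega_iff h2 Q hQ (by omega) one_ne_zero x.1).1 x.2).1
  refine (fx_eq h2 (nd_polar hQ) (by rwa [Module.finrank_fintype_fun_eq_card]) hr hse (fun u v => ie_B x.1 u v)
    (ie_comm hxs') hdet h1 hW).resolve_left ?_
  intro h
  apply hx1
  apply Subtype.ext
  apply isometryHom_injective Q
  apply LinearEquiv.ext
  intro v
  have h4 := LinearMap.congr_fun h v
  rw [OneMemClass.coe_one, map_one]
  exact h4

end Cfsg.Agent.H524.CS
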