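import Mathlib
import Cfsg.Agent.H524.CS.Fix
import Cfsg.Agent.H524.CS.Even
import Cfsg.Agent.H524.CS.Arith
import Cfsg.Agent.H510.CS.Cent
import Cfsg.Agent.H510.CS.Irr
import Cfsg.Agent.S0292

/-!
# S3677: the centralizers of `Omega_{2n+1}(q)` whose order is divisible by a primitive prime divisor of
`q^(2n) - 1` (helper524)
-/

set_option autoImplicit false

namespace Cfsg.Agent.H524.CS

open Module QuadraticMap Cfsg.Agent.H951 Cfsg.Agent.H204 Cfsg.Agent.LieClassical.OrthFinite
  Cfsg.Agent.LieClassical.OrthForms Cfsg.Agent.H510.CS Cfsg.Agent.H370.AAM Cfsg.Agent.H431.CS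

section Gen

variable {F V : Type*} [Field F] [Fintype F] [AddCommGroup V] [Module F V] [FiniteDimensional F V]

/-- `[V, s]` is irreducible if `dim V < 2 ord_r(q)` -/
theorem irr_cm {s : End F V} {r d : ℕ} [Fact r.Prime] (hr : (r : F) ≠ 0) (hs : s ^ r = 1) (hs1 : s ≠ 1)
    (ho : orderOf (Fintype.card F : ZMod r) = d) (hd : finrank F V < 2 * d) :
    Irr s (cm s) ∧ finrank F (cm s) = d := by
  have hcm0 : cm s ≠ ⊥ := by
    intro h
    apply hs1
    refine LinearMap.ext fun v => ?_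
    have h1 : s v - v ∈ cm s := mem_cm.2 ⟨v, rfl⟩
    rw [h, Submodule.mem_bot] at h1
    exact sub_eq_zero.1 h1
  have hdv : ∀ U : Submodule F V, U ≤ cm s → Inv s U → d ∣ finrank F U := fun U hU hUi => by
    rw [← ho]
    exact ord_dvd_finrank hs hUi (inf_fx_of_le_cm hr hs hU)
  have hdim : finrank F (cm s) = d := by
    obtain ⟨c, hc⟩ := hdv _ le_rfl inv_cm
    have h1 := Submodule.finrank_le (cm s)
    have h3 : finrank F (cm s) ≠ 0 := fun h => hcm0 (Submodule.finrank_eq_zero.1 h)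
    have h4 : c ≠ 0 := by rintro rfl; exact h3 hc
    have h5 : c < 2 := by
      by_contra h6
      have : d * 2 ≤ d * c := Nat.mul_le_mul_left _ (by omega)
      omega
    have h6 : c = 1 := by omega
    rw [hc, h6, mul_one]
  refine ⟨⟨hcm0, inv_cm, fun U hU hUi => ?_⟩, hdim⟩
  obtain ⟨c, hc⟩ := hdv U hU hUi
  rcases Nat.eq_zero_or_pos c with h | h
  · left
    rw [h, mul_zero] at hc
    exact Submodule.finrank_eq_zero.1 hc
  · right
    refine Submodule.eq_of_le_of_finrank_le hU ?_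
    rw [hdim, hc]
    exact Nat.le_mul_of_pos_right d h

omit [Fintype F] [FiniteDimensional F V] in
/-- on an irreducible space a commuting operator without fixed vectors has square one only if it is `-1` -/
theorem eq_neg_of_sq {s x : End F V} {W : Submodule F V} (hW : Irr s W) (hxs : ∀ v, x (s v) = s (x v)) (hxW : Inv x W)
    (hsq : ∀ w ∈ W, x (x w) = w) (hne : ¬ ∀ w ∈ W, x w = w) : ∀ w ∈ W, x w = -w := by
  have hinv : Inv s (W ⊓ fx x) := by
    refine hW.2.1.inf fun v hv => ?_
    rw [mem_fx] at hv ⊢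
    rw [hxs, hv]
  rcases hW.2.2 _ inf_le_left hinv with h | h
  · intro w hw
    have h1 : x w + w ∈ W ⊓ fx x := by
      refine ⟨W.add_mem (hxW w hw) hw, mem_fx.2 ?_⟩
      rw [map_add, hsq w hw, add_comm]
    rw [h, Submodule.mem_bot] at h1
    exact eq_neg_of_add_eq_zero_left h1
  · exfalso
    apply hne
    intro w hw
    rw [← h] at hw
    exact mem_fx.1 hw.2

end Gen

variable {F : Type*} [Field F] [Fintype F] {ι : Type} [Fintype ι] [DecidableEq ι] {Q : QuadraticForm F (ι → F)}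

theorem nd_cm (hQ : (polarBilin Q).Nondegenerate) (s : Cfsg.isometryGroup F ⇑Q) {r : ℕ} (hr : (r : F) ≠ 0)
    (hs : s ^ r = 1) : Nd (LinearMap.BilinForm.restrict (polarBilin Q) (cm (ie Q s : End F (ι → F)))) := by
  have hs' : ((ie Q s : (ι → F) ≃ₗ[F] (ι → F)) : End F (ι → F)) ^ r = 1 := by
    rw [ie_pow, hs, map_one]; rfl
  apply nd_restrict_of_isCompl (nd_polar hQ)
  rw [perp_cm (sy_polar Q) (nd_polar hQ) (s := ie Q s) (ie_B s)]
  exact (isCompl_fx_cm hr hs').symm.sup_eq_top

/-- case `x = -1` on `W = [V, s]` -/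
theorem card_neg (h2 : (2 : F) ≠ 0) (hQ : (polarBilin Q).Nondegenerate) {p f : ℕ} (hp : p.Prime) (hf : 1 ≤ f)
    (hF : Nat.card F = p ^ f) {n : ℕ} (hn : 1 ≤ n) (s : Cfsg.isometryGroup F ⇑Q) {r : ℕ} (hr : (r : F) ≠ 0)
    (hs : s ^ r = 1) (hd : finrank F (cm (ie Q s : End F (ι → F))) = 2 * n) {y : End F (cm (ie Q s : End F (ι → F)))}
    (hy : ∀ w, y w = -w) :
    ∃ A, ¬ p ∣ A ∧ Nat.card (CI (LinearMap.BilinForm.restrict (polarBilin Q) (cm (ie Q s : End F (ι → F)))) y) =
      2 * ((p ^ f) ^ (n * (n - 1)) * A) := by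
  have hnd := nd_cm hQ s hr hs
  obtain ⟨A, hA, hc⟩ := card_even h2 hp hf hF hn hd (Q.comp (cm (ie Q s : End F (ι → F))).subtype) (fun u hu => by
    apply hnd
    intro v
    have := hu v
    exact this)
  refine ⟨A, hA, ?_⟩
  rw [← hc]
  refine Nat.card_congr (Equiv.subtypeEquivRight fun g => ?_)
  constructor
  · intro h u v
    exact h.1 u v
  · intro h
    refine ⟨fun u v => h u v, fun v => ?_⟩
    rw [hy, hy, map_neg]

section Top

variable {n r p f : ℕ}

/-- **the centralizers, top case** -/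
theorem top_cases (h2 : (2 : F) ≠ 0) (hQ : (polarBilin Q).Nondegenerate) (hn : 1 ≤ n) (hι : Fintype.card ι = 2 * n + 1)
    (hr : r.Prime) (hro : Odd r) (hrF : (r : F) ≠ 0) (ho : orderOf (Fintype.card F : ZMod r) = 2 * n)
    (hp : p.Prime) (hf : 1 ≤ f) (hF : Fintype.card F = p ^ f) {s x : Cfsg.Omega F ⇑Q}
    (hs : orderOf s = r) (hxs : Commute x s) (hx1 : x ≠ 1) :
    (x ≠ s ∧ ∃ A, ¬ p ∣ A ∧
      Nat.card (Subgroup.centralizer ({x} : Set (Cfsg.Omega F ⇑Q))) = (p ^ f) ^ (n * (n - 1)) * A) ∨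
      ∃ k m, k * m = n ∧ (x = s → k = n) ∧
        2 * Nat.card (Subgroup.centralizer ({x} : Set (Cfsg.Omega F ⇑Q))) = gu ((p ^ f) ^ k) m := by
  have hfact : Fact r.Prime := ⟨hr⟩
  have hs0 : s ^ r = 1 := by rw [← hs, pow_orderOf_eq_one]
  have hs1 : s ≠ 1 := by
    rintro rfl
    rw [orderOf_one] at hs
    exact hr.one_lt.ne hs
  have hs' : s.1 ^ r = 1 := congrArg Subtype.val hs0
  have hxs' : Commute x.1 s.1 := congrArg Subtype.val hxs.eq
  set se : End F (ι → F) := (ie Q s.1 : End F (ι → F)) with hse0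
  set xe : End F (ι → F) := (ie Q x.1 : End F (ι → F)) with hxe0
  have hse : se ^ r = 1 := by
    rw [hse0, ie_pow, hs', map_one]; rfl
  have hse1 : se ≠ 1 := by
    intro h
    apply hs1
    apply Subtype.ext
    apply isometryHom_injective Q
    apply LinearEquiv.ext
    intro v
    rw [OneMemClass.coe_one, map_one]
    exact LinearMap.congr_fun h v
  have hdimV : finrank F (ι → F) = 2 * n + 1 := by rw [Module.finrank_fintype_fun_eq_card, hι]
  obtain ⟨hirr, hdim⟩ := irr_cm hrF hse hse1 ho (by rw [hdimV]; omega)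
  have hfx1 : finrank F (fx se) = 1 := by
    have := finrank_fx_add_cm hrF hse
    rw [hdim, hdimV] at this
    omega
  have hxc : ∀ v, xe (se v) = se (xe v) := ie_comm hxs'
  have hinv : Inv xe (cm se) := inv_cm_of_comm hxc
  -- fixed vectors
  have hW : (∃ w ∈ cm se, w ≠ 0 ∧ xe w = w) → ∀ w ∈ cm se, xe w = w := by
    rintro ⟨w, hw, hw0, hxw⟩
    have hi : Inv se (cm se ⊓ fx xe) := by
      refine hirr.2.1.inf fun v hv => ?_
      rw [mem_fx] at hv ⊢
      rw [hxc, hv]
    rcases hirr.2.2 _ inf_le_left hi with h | h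
    · exfalso
      apply hw0
      rw [← Submodule.mem_bot F, ← h]
      exact ⟨hw, mem_fx.2 hxw⟩
    · intro v hv
      rw [← h] at hv
      exact mem_fx.1 hv.2
  have hι3 : 3 ≤ Fintype.card ι := by omega
  have hιo : Odd (Fintype.card ι) := ⟨n, hι⟩
  have hfx := ie_fx h2 hQ hιo hι3 hrF hs0 hxs hx1 hfx1 hW
  have hcard := card_red h2 hQ hιo hι3 hro hrF hs0 hs1 hxs hfx1 hfx hinv (fun t htB hts w hw => by
    exact comm_of_irr hirr hts hxc (inv_cm_of_comm hts) hinv hw)
  have hcm0 : cm se ≠ ⊥ := hirr.1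
  have hnefix : ¬ ∀ w ∈ cm se, xe w = w := by
    intro h
    obtain ⟨w, hw, hw0⟩ := (Submodule.ne_bot_iff _).1 hcm0
    have h3 : w ∈ fx xe := mem_fx.2 (h w hw)
    rw [hfx] at h3
    have h4 := (isCompl_fx_cm hrF hse).inf_eq_bot
    apply hw0
    rw [← Submodule.mem_bot F, ← h4]
    exact ⟨h3, hw⟩
  have hF' : Nat.card F = p ^ f := by rw [Nat.card_eq_fintype_card, hF]
  by_cases hsq : ∀ w ∈ cm se, xe (xe w) = w
  · left
    have hneg := eq_neg_of_sq hirr hxc hinv hsq hnefix
    obtain ⟨A, hA, hA2⟩ := card_neg h2 hQ hp hf hF' hn s.1 hrF hs' hdim (y := res xe hinv) (fun w =>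
      Subtype.ext (hneg w w.2))
    refine ⟨?_, A, hA, ?_⟩
    · rintro rfl
      apply hnefix
      intro w hw
      obtain ⟨j, hj⟩ := hro
      have h5 : (xe ^ 2) w = w := by
        rw [pow_two, Module.End.mul_apply]
        exact hsq w hw
      have h6 := pow_fx h5 j
      have h7 : (xe ^ r) w = xe w := by
        rw [hj, pow_succ', Module.End.mul_apply, pow_mul, h6]
      rw [← h7]
      have h8 : xe ^ r = 1 := hse
      rw [h8]
      rfl
    · rw [hA2] at hcard
      omega
  · right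
    push Not at hsq
    obtain ⟨w1, hw1, hw1'⟩ := hsq
    have hnt : Nontrivial (cm se) := (Submodule.nontrivial_iff_ne_bot).2 hcm0
    let B : cm se → cm se → F := fun u v => polarBilin Q (u : ι → F) v
    have hB : Frm (RingHom.id F) 1 B :=
      { add_left := fun u v w => by
          show polarBilin Q ((u : ι → F) + v) w = _
          rw [map_add, LinearMap.add_apply]
        smul_left := fun a u v => by
          show polarBilin Q (a • (u : ι → F)) v = _
          rw [map_smul, LinearMap.smul_apply, smul_eq_mul]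
        herm := fun u v => by
          rw [one_mul]
          exact sy_polar Q _ _
        sigma_sq := fun a => rfl
        eps_ne := one_ne_zero }
    have hndW := nd_cm hQ s.1 hrF hs'
    let w : cm se ≃ₗ[F] cm se := resE (ie Q x.1) hinv
    have hw : ∀ u, ((w u : cm se) : ι → F) = xe u := fun u => rfl
    have hwe : (w : End F (cm se)) = res xe hinv := rfl
    have hirrw : Irreducible (minpoly F (w : End F (cm se))) := by
      rw [hwe]
      exact irreducible_minpoly hirr hxc hinv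
    obtain ⟨k, m, hk, hm, hkm, hdeg, hc⟩ := card_cent (V := cm se) hB (fun u hu => hndW u hu) (Or.inl rfl)
      (W := w) (fun u v => ie_B x.1 u v) hirrw ⟨⟨w1, hw1⟩, fun h => hw1' (congrArg Subtype.val h)⟩
    refine ⟨k, m, ?_, ?_, ?_⟩
    · rw [hdim, mul_assoc] at hkm
      omega
    · rintro rfl
      have h5 : finrank F (cm se) = (minpoly F (w : End F (cm se))).natDegree := by
        refine hirr.finrank_eq_natDegree hirrw fun v hv => ?_
        have h6 := aeval_res hinv (minpoly F (w : End F (cm se))) ⟨v, hv⟩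
        have h7 : Polynomial.aeval (res xe hinv) (minpoly F (w : End F (cm se))) = 0 := minpoly.aeval F (res xe hinv)
        exact h6.symm.trans (congrArg Subtype.val (LinearMap.congr_fun h7 ⟨v, hv⟩))
      rw [hdim, hdeg] at h5
      omega
    · rw [hcard, ← hF', gu, ← hc]
      rfl

end Top

theorem Lat.of_eq {S T : Type*} [Group S] [Group T] {p r m : ℕ} (h : Lat S p r m) (hc : Nat.card T = Nat.card S)
    (hco : Co T = Co S) : Lat T p r m := by
  refine ⟨?_, ?_, ?_, ?_, h.pm, ?_, ?_, ?_⟩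
  · rw [hc]; exact h.rS
  · rw [hco]; exact h.h0
  · rw [hco]; exact h.mem
  · rw [hc]; exact h.full
  · rw [hco, hc]; exact h.one
  · rw [hco, hc]; exact h.h3
  · rw [hco, hc]; exact h.h4

end Cfsg.Agent.H524.CS
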