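import Mathlib
import Cfsg.Agent.H524.CS.Top
import Cfsg.Agent.H510.CS.PSpLat
import Cfsg.Agent.Lib.Zsigmondy

/-!
# S3677: the lattice `lat_odd_top` (helper524)
-/

set_option autoImplicit false

namespace Cfsg.Agent.H524.CS

open Module QuadraticMap Cfsg Cfsg.Agent.LieClassical.OrthFinite
  Cfsg.Agent.LieClassical.OrthForms Cfsg.Agent.H510.CS Cfsg.Agent.H370.AAM Cfsg.Agent.H431.CS

universe v

variable {F : Type v} [Field F] [Fintype F] {p f n r : ℕ}

theorem card_idx (m : ℕ) : Fintype.card (Unit ⊕ (Fin m ⊕ Fin m)) = 2 * m + 1 := by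
  simp only [Fintype.card_sum, Fintype.card_unit, Fintype.card_fin]
  omega

theorem odd_q (hp : p.Prime) (hp2 : p ≠ 2) (hF : Fintype.card F = p ^ f) : Odd (Fintype.card F) := by
  rw [hF]
  exact (hp.odd_of_ne_two hp2).pow

theorem two_ne (hp : p.Prime) (hp2 : p ≠ 2) (hF : Fintype.card F = p ^ f) : (2 : F) ≠ 0 :=
  Cfsg.Agent.H204.two_ne_zero_of_odd (odd_q hp hp2 hF)

theorem nondeg_odd (h2 : (2 : F) ≠ 0) (n : ℕ) : (polarBilin (oddForm n F)).Nondegenerate :=
  Cfsg.Agent.H182.Sign.nondegenerate_iff_nondeg.2 (nondeg_oddForm n F h2)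

/-- twice the order of `Omega_{2n+1}(q)` -/
theorem card_om (hp : p.Prime) (hp2 : p ≠ 2) (hF : Fintype.card F = p ^ f) (hn : 3 ≤ n) :
    2 * Nat.card (Omega F ⇑(oddForm n F)) = sp (p ^ f) n := by
  have h2 := two_ne hp hp2 hF
  rw [← card_pomega h2 (nondeg_odd h2 n) ⟨n, card_idx n⟩ (by rw [card_idx]; omega), coe_oddForm,
    Cfsg.Agent.S0292.result hF (by rw [← hF]; exact odd_q hp hp2 hF) n hn, sp]

/-- **the lattice, top case** -/
theorem lat_odd_top (hp : p.Prime) (hp2 : p ≠ 2) (hf : 1 ≤ f) (hF : Fintype.card F = p ^ f) (hn : 3 ≤ n) (hr : r.Prime)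
    (ho : orderOf (((p ^ f : ℕ)) : ZMod r) = 2 * n) :
    Lat (POmega F (quadFormOdd n F)) p r (((p ^ f) ^ n + 1) / 2) := by
  have h2 := two_ne hp hp2 hF
  have hQ := nondeg_odd h2 n
  have hι : Fintype.card (Unit ⊕ (Fin n ⊕ Fin n)) = 2 * n + 1 := card_idx n
  have hιo : Odd (Fintype.card (Unit ⊕ (Fin n ⊕ Fin n))) := ⟨n, hι⟩
  have hι3 : 3 ≤ Fintype.card (Unit ⊕ (Fin n ⊕ Fin n)) := by omega
  have hq0 : 0 < p ^ f := pow_pos hp.pos f
  have hpo : Odd p := hp.odd_of_ne_two hp2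
  have hfact : Fact r.Prime := ⟨hr⟩
  have hrq : ¬ r ∣ p ^ f := by
    intro h
    have h0 : ((p ^ f : ℕ) : ZMod r) = 0 := (ZMod.natCast_eq_zero_iff _ r).2 h
    rw [h0] at ho
    have : orderOf (0 : ZMod r) = 0 := orderOf_eq_zero_iff'.2 fun n hn => by rw [zero_pow hn.ne']; exact zero_ne_one
    omega
  have hr2 : r ≠ 2 := by
    rintro rfl
    have h1 := Cfsg.Agent.Lib.Zsigmondy.orderOf_dvd_pred hr hrq
    rw [ho] at h1
    have := Nat.le_of_dvd (by norm_num) h1
    omega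
  have hrp : r ≠ p := by
    rintro rfl
    exact hrq (dvd_pow_self r (by omega))
  have hrF : (r : F) ≠ 0 := by
    intro h
    have hch : CharP F p := charP_of hp hF
    have h1 : p ∣ r := (CharP.cast_eq_zero_iff F p r).1 h
    exact hrp ((Nat.prime_dvd_prime_iff_eq hp hr).1 h1).symm
  have hcardS := card_om (n := n) hp hp2 hF hn
  have h2M : 2 * (((p ^ f) ^ n + 1) / 2) = (p ^ f) ^ n + 1 := by
    apply Nat.mul_div_cancel'
    have : Odd ((p ^ f) ^ n) := hpo.pow.pow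
    exact this.add_one.two_dvd
  have hS : Nat.card (Omega F ⇑(oddForm n F)) = spA (p ^ f) n * (((p ^ f) ^ n + 1) / 2) := by
    apply Nat.eq_of_mul_eq_mul_left two_pos
    rw [hcardS, sp_eq _ (by omega : 2 ≤ n), mul_left_comm, h2M]
  have hS0 : Nat.card (Omega F ⇑(oddForm n F)) ≠ 0 := Nat.card_pos.ne'
  rw [← coe_oddForm]
  refine Lat.of_eq (S := Omega F ⇑(oddForm n F)) ?_ (card_pomega h2 hQ hιo hι3) (co_pomega h2 hQ hιo hι3)
  have hkpos : ∀ k m : ℕ, k * m = n → 1 ≤ k := by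
    intro k m h
    rcases Nat.eq_zero_or_pos k with rfl | h1
    · rw [zero_mul] at h
      omega
    · exact h1
  refine lat_of (f := f) (n := n) hp hp2 hf (by omega) hr ?_ ?_ ?_ ?_ (fun k m => gu ((p ^ f) ^ k) m) ?_ ?_ ?_ ?_ ?_
  · have h1 : (2 * Nat.card (Omega F ⇑(oddForm n F))).factorization p = f * n ^ 2 := by
      rw [hcardS, fac_sp hp hf]
    rw [Nat.factorization_mul two_ne_zero hS0, Finsupp.add_apply, Nat.factorization_eq_zero_of_not_dvd (n := 2),
      zero_add] at h1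
    · exact h1
    · intro h
      exact hp2 ((Nat.prime_dvd_prime_iff_eq hp Nat.prime_two).1 h)
  · rw [hS]
    refine Dvd.dvd.mul_left ?_ _
    have h1 := dvd_add_one hr hq0 (by omega : 2 ≤ n) ho
    rw [← h2M] at h1
    exact (hr.dvd_mul.1 h1).resolve_left fun h => hr2 ((Nat.prime_dvd_prime_iff_eq hr Nat.prime_two).1 h)
  · have h1 : r ^ (Nat.card (Omega F ⇑(oddForm n F))).factorization r ∣ Nat.card (Omega F ⇑(oddForm n F)) :=
      Nat.ordProj_dvd _ _
    nth_rewrite 2 [hS] at h1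
    refine Nat.Coprime.dvd_of_dvd_mul_left (Nat.Coprime.pow_left _ ?_) h1
    exact (Nat.Prime.coprime_iff_not_dvd hr).2 (not_dvd_spA hr hrq hq0 (by omega) ho)
  · intro h
    have h1 : p ∣ (p ^ f) ^ n + 1 := by
      rw [← h2M]
      exact h.mul_left _
    have h3 : p ∣ (p ^ f) ^ n := (dvd_pow_self p (by omega)).trans (dvd_pow_self _ (by omega))
    exact hp.one_lt.ne' (Nat.dvd_one.1 ((Nat.dvd_add_right h3).1 h1))
  · intro k m hkm
    have := hkpos k m hkm
    apply gu_ne_zero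
    rw [← pow_mul]
    exact hp.two_le.trans (Nat.le_self_pow (Nat.mul_ne_zero (by omega) (by omega)) p)
  · intro k m hkm
    have := hkpos k m hkm
    show (gu ((p ^ f) ^ k) m).factorization p = _
    rw [← pow_mul, fac_gu hp (Nat.mul_pos hf this), mul_assoc]
  · intro y hy
    rcases top_cases h2 hQ (by omega) hι hr (hr.odd_of_ne_two hr2) hrF (by rw [hF]; exact ho) hp hf hF hy
      (Commute.refl y) (by rintro rfl; rw [orderOf_one] at hy; exact hr.one_lt.ne hy) with ⟨h, -⟩ | ⟨k, m, hkm, hk, h⟩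
    · exact absurd rfl h
    · obtain rfl := hk rfl
      have hm1 : m = 1 := Nat.eq_of_mul_eq_mul_left (by omega : 0 < k) (by rw [hkm, mul_one])
      rw [hm1, gu_one] at h
      omega
  · show gu ((p ^ f) ^ n) 1 = _
    rw [gu_one, h2M]
  · intro x y hx hxy hy
    rcases top_cases h2 hQ (by omega) hι hr (hr.odd_of_ne_two hr2) hrF (by rw [hF]; exact ho) hp hf hF hy
      hxy.symm hx with ⟨-, h⟩ | ⟨k, m, hkm, -, h⟩
    · exact Or.inl h
    · exact Or.inr ⟨k, m, hkm, h⟩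

end Cfsg.Agent.H524.CS
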